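import Cfsg.Agent.H38.CyclicPairs.Reduce
import Cfsg.Agent.H63.ItoThree.Tools
import Cfsg.Agent.S0071
import Cfsg.Prelude.Def_Local

/-!
# Multiplicative classes of `p`-elements and `p`-solubility
-/

set_option autoImplicit false

namespace Cfsg.Agent.H63.MultClasses

open ItoThree

universe u

/-- The class of a product is the product of the classes. -/
def Mult (p : ℕ) (G : Type*) [Group G] : Prop :=
  ∀ x y : G, (∃ a : ℕ, orderOf x = p ^ a) → (∃ q b : ℕ, q.Prime ∧ q ≠ p ∧ orderOf y = q ^ b) →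
    ∀ z : G, IsConj (x * y) z ↔ ∃ a b : G, z = a * x * a⁻¹ * (b * y * b⁻¹)

variable {G : Type u} [Group G] [Finite G] {p : ℕ} [hp : Fact p.Prime]

/-- A part of an element outside a subgroup. -/
theorem exists_part_notMem (H : Subgroup G) (x : G) (hx : x ∉ H) :
    ∃ q : ℕ, q.Prime ∧ ∃ y ∈ Subgroup.zpowers x, PE q y ∧ y ∉ H := by
  suffices ∀ n : ℕ, ∀ x : G, orderOf x = n → x ∉ H →
      ∃ q : ℕ, q.Prime ∧ ∃ y ∈ Subgroup.zpowers x, PE q y ∧ y ∉ H from this _ x rfl hx
  intro n
  induction n using Nat.strong_induction_on with | _ n ih => ?_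
  intro x hn hx
  have hne : orderOf x ≠ 1 := fun e => hx (orderOf_eq_one_iff.1 e ▸ H.one_mem)
  obtain ⟨q, hq, hd⟩ := Nat.exists_prime_and_dvd hne
  obtain ⟨y, z, hy, hz, hyz, hyq, hzq⟩ := parts hq x
  by_cases hyH : y ∈ H
  · have hlt : orderOf z < n := hn ▸ lt_of_le_of_ne
      (Nat.le_of_dvd (orderOf_pos x) (orderOf_dvd_of_mem_zpowers hz))
      fun e => hq.ne_one ((Nat.coprime_self q).1 ((e ▸ hzq).coprime_dvd_left hd))
    obtain ⟨r, hr, w, hw, hwr, hwH⟩ := ih _ hlt z rfl fun e => hx (hyz ▸ H.mul_mem hyH e)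
    exact ⟨r, hr, w, Subgroup.zpowers_le.2 hz hw, hwr, hwH⟩
  · exact ⟨q, hq, y, hy, hyq, hyH⟩

/-- The hypothesis passes to quotients. -/
theorem mult_quotient (h : Mult p G) (N : Subgroup G) [N.Normal] : Mult p (G ⧸ N) := by
  have lift : ∀ (q : ℕ), q.Prime → ∀ x : G ⧸ N, PE q x →
      ∃ g : G, PE q g ∧ (g : G ⧸ N) = x := by
    intro q hq x hx
    induction x using QuotientGroup.induction_on with | _ g => ?_
    obtain ⟨y, z, hy, -, hyz, hyq, hzq⟩ := parts hq g
    refine ⟨y, hyq, ?_⟩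
    have h1 : PE q (z : G ⧸ N) := by
      have e : (z : G ⧸ N) = ((y : G ⧸ N))⁻¹ * (g : G ⧸ N) := by
        rw [← hyz, QuotientGroup.mk_mul, inv_mul_cancel_left]
      have hcomm : Commute y g := by
        obtain ⟨k, rfl⟩ := hy
        exact (Commute.refl g).zpow_left k
      rw [e]
      exact pe_mul hq (pe_inv (by
        obtain ⟨k, hk⟩ := hyq
        obtain ⟨j, -, hj⟩ := (Nat.dvd_prime_pow hq).1 (hk ▸ orderOf_map_dvd (QuotientGroup.mk' N) y)
        exact ⟨j, hj⟩)) hx
        ((hcomm.map (QuotientGroup.mk' N)).inv_left)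
    have h2 := eq_one_of_pe_coprime h1
      (hzq.coprime_dvd_left (orderOf_map_dvd (QuotientGroup.mk' N) z))
    rw [← hyz, QuotientGroup.mk_mul, h2, mul_one]
  intro x y hx hy z
  obtain ⟨g, hg, rfl⟩ := lift p hp.out x hx
  obtain ⟨q, b, hq, hne, hb⟩ := hy
  obtain ⟨k, hk, rfl⟩ := lift q hq y ⟨b, hb⟩
  have hgk := h g k hg (by obtain ⟨c, hc⟩ := hk; exact ⟨q, c, hq, hne, hc⟩)
  constructor
  · intro hz
    obtain ⟨c, hc⟩ := isConj_iff.1 hz
    induction c using QuotientGroup.induction_on with | _ c => ?_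
    obtain ⟨a, b, hab⟩ := (hgk (c * (g * k) * c⁻¹)).1 (isConj_iff.2 ⟨c, rfl⟩)
    refine ⟨a, b, ?_⟩
    rw [← hc]
    simp only [← QuotientGroup.mk_mul, ← QuotientGroup.mk_inv]
    exact congrArg _ hab
  · rintro ⟨a, b, rfl⟩
    induction a using QuotientGroup.induction_on with | _ a => ?_
    induction b using QuotientGroup.induction_on with | _ b => ?_
    obtain ⟨c, hc⟩ := isConj_iff.1 ((hgk _).2 ⟨a, b, rfl⟩)
    refine isConj_iff.2 ⟨c, ?_⟩
    simp only [← QuotientGroup.mk_mul, ← QuotientGroup.mk_inv]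
    exact congrArg _ hc

/-- A `q`-element normalising a `p`-subgroup of a minimal normal subgroup centralises it. -/
theorem no_action (h : Mult p G) {N : Subgroup G} [N.Normal]
    (hmin : ∀ M : Subgroup G, M.Normal → M ≤ N → M ≠ ⊥ → M = N) {U : Subgroup G} (hU : IsPGroup p U)
    (hUN : U ≤ N) {q : ℕ} (hq : q.Prime) (hne : q ≠ p) {y : G} (hy : PE q y) (hyN : y ∈ N)
    (hyU : y ∈ Subgroup.normalizer (U : Set G)) {u : G} (hu : u ∈ U) : Commute y u := by
  by_contra hc
  set w := y⁻¹ * (u * y * u⁻¹) with hw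
  have hwU : w ∈ U := by
    have h1 := (Subgroup.mem_normalizer_iff.1 (inv_mem hyU) u).1 hu
    rw [inv_inv] at h1
    have e : w = y⁻¹ * u * y * u⁻¹ := by rw [hw]; group
    rw [e]
    exact mul_mem h1 (inv_mem hu)
  have hw1 : w ≠ 1 := fun e => hc (by
    rw [hw, inv_mul_eq_one] at e
    calc y * u = u * y * u⁻¹ * u := by rw [← e]
      _ = u * y := by group)
  obtain ⟨b, hb⟩ := hy
  have hwy := h w y (pe_of_mem hU hwU) ⟨q, b, hq, hne, hb⟩
  have hbase : IsConj (w * y) y := by
    refine isConj_iff.2 ⟨u⁻¹ * y, ?_⟩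
    rw [hw]
    group
  have hstable : ∀ a g : G, IsConj y g → IsConj y (a * w * a⁻¹ * g) := by
    intro a g hg
    obtain ⟨c, rfl⟩ := isConj_iff.1 hg
    exact hbase.symm.trans ((hwy _).2 ⟨a, c, rfl⟩)
  have hcl : Subgroup.normalClosure ({w} : Set G) ≤
      Subgroup.closure (Group.conjugatesOfSet ({w} : Set G)) := le_rfl
  have hall : ∀ n ∈ Subgroup.normalClosure ({w} : Set G), ∀ g, IsConj y g → IsConj y (n * g) := by
    intro n hn
    refine Subgroup.closure_induction (p := fun n _ => ∀ g, IsConj y g → IsConj y (n * g)) ?_ ?_ ?_ ?_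
      (hcl hn)
    · intro m hm g hg
      obtain ⟨w', hw', hmw⟩ := Group.mem_conjugatesOfSet_iff.1 hm
      rw [Set.mem_singleton_iff] at hw'
      obtain ⟨a, rfl⟩ := isConj_iff.1 hmw
      subst hw'
      exact hstable a g hg
    · simp
    · intro m m' _ _ hm hm' g hg
      rw [mul_assoc]
      exact hm _ (hm' g hg)
    · intro m _ hm g hg
      have hpow : ∀ k : ℕ, ∀ g, IsConj y g → IsConj y (m ^ k * g) := by
        intro k
        induction k with
        | zero => simp
        | succ k ih =>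
          intro g hg
          rw [pow_succ, mul_assoc]
          exact ih _ (hm g hg)
      have e : m⁻¹ = m ^ (orderOf m - 1) := inv_eq_of_mul_eq_one_right (by
        rw [← pow_succ', Nat.sub_add_cancel (orderOf_pos m), pow_orderOf_eq_one])
      rw [e]
      exact hpow _ g hg
  have hNw : Subgroup.normalClosure ({w} : Set G) = N := by
    refine hmin _ Subgroup.normalClosure_normal (Subgroup.normalClosure_le_normal (by
      simpa using hUN hwU)) fun e => hw1 ?_
    have := Subgroup.subset_normalClosure (Set.mem_singleton w)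
    rwa [e, SetLike.mem_coe, Subgroup.mem_bot] at this
  have h1 := hall y⁻¹ (hNw ▸ inv_mem hyN) y (IsConj.refl y)
  rw [inv_mul_cancel, isConj_comm, isConj_one_right] at h1
  exact hc (h1 ▸ Commute.one_left u)

theorem isPSolvable_of_mult : ∀ (n : ℕ) (G : Type u) [Group G] [Finite G], Nat.card G = n →
    Mult p G → Cfsg.IsPSolvable p G := by
  intro n
  induction n using Nat.strong_induction_on with | _ n ih => ?_
  intro G _ _ hn h
  rcases subsingleton_or_nontrivial G with hs | hs
  · exact H38.CP.isPSolvable_of_card (Or.inl ⟨0, by simp⟩)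
  obtain ⟨N, ⟨hN, hNne⟩, hmin⟩ := (Set.toFinite {X : Subgroup G | X.Normal ∧ X ≠ ⊥}).exists_minimal
    ⟨⊤, inferInstance, top_ne_bot⟩
  have := hN
  have hmin' : ∀ M : Subgroup G, M.Normal → M ≤ N → M ≠ ⊥ → M = N :=
    fun M hM hle hne => le_antisymm hle (hmin ⟨hM, hne⟩ hle)
  refine H38.CP.isPSolvable_extend N ?_ (ih _ ?_ (G ⧸ N) rfl (mult_quotient h N))
  · obtain ⟨P⟩ : Nonempty (Sylow p N) := inferInstance
    obtain ⟨K, hK, hKP⟩ := (S0071.result P).2 fun Q hQ g hg hgp => by
      by_contra hgc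
      obtain ⟨q, hq, y, hy, hyq, hyc⟩ := exists_part_notMem _ g hgc
      have hqp : q ≠ p := by
        rintro rfl
        exact hyc ((eq_one_of_pe_coprime hyq
          (hgp.coprime_dvd_left (orderOf_dvd_of_mem_zpowers hy))) ▸ one_mem _)
      refine hyc (Subgroup.mem_centralizer_iff.2 fun u hu => Subtype.ext ?_)
      have hyn := Subgroup.zpowers_le.2 hg hy
      refine (no_action h hmin' (U := Q.map N.subtype) ((P.2.to_le hQ).map _)
        (Subgroup.map_subtype_le Q) hq hqp (y := (y : G)) ?_ y.2 ?_ (u := (u : G))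
        ⟨u, hu, rfl⟩).eq.symm
      · simpa [PE, Subgroup.orderOf_coe] using hyq
      · exact Subgroup.le_normalizer_map N.subtype ⟨y, hyn, rfl⟩
    obtain ⟨i, hi⟩ := IsPGroup.iff_card.1 P.2
    have hcard := hKP.card_mul_card
    have hKp : ¬ p ∣ Nat.card K := by
      rw [← hKP.index_eq_card]
      exact P.not_dvd_index
    have hmem : ∀ g : N, g ∈ K ↔ (orderOf g).Coprime p := fun g => by
      constructor
      · intro hg
        refine (((hp.out.coprime_iff_not_dvd).2 hKp).symm).coprime_dvd_left ?_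
        rw [← Subgroup.orderOf_mk g hg]
        exact orderOf_dvd_natCard _
      · intro hg
        refine (QuotientGroup.eq_one_iff g).1 (orderOf_eq_one_iff.1 (Nat.eq_one_of_dvd_coprimes ?_
          (orderOf_map_dvd (QuotientGroup.mk' K) g) (orderOf_dvd_natCard _)))
        rw [← Subgroup.index_eq_card, hKP.symm.index_eq_card, hi]
        exact hg.pow_right i
    have hKG : (K.map N.subtype).Normal := ⟨fun g hg a => by
      obtain ⟨k, hk, rfl⟩ := hg
      refine ⟨⟨a * k * a⁻¹, hN.conj_mem _ k.2 a⟩, (hmem _).2 ?_, rfl⟩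
      rw [Subgroup.orderOf_mk, orderOf_conj']
      simpa [Subgroup.orderOf_coe] using (hmem k).1 hk⟩
    by_cases hbot : K.map N.subtype = ⊥
    · refine Or.inl ⟨i, ?_⟩
      rw [← hcard, (Subgroup.map_eq_bot_iff_of_injective _ Subtype.val_injective).1 hbot,
        Subgroup.card_bot, one_mul, hi]
    · refine Or.inr ?_
      rw [← hmin' _ hKG (Subgroup.map_subtype_le K) hbot,
        Nat.card_congr (Subgroup.equivMapOfInjective K _ Subtype.val_injective).symm.toEquiv]
      exact hKp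
  · rw [← hn]
    have h1 := N.card_eq_card_quotient_mul_card_subgroup
    have h2 : 1 < Nat.card N := (Subgroup.one_lt_card_iff_ne_bot N).2 hNne
    have h3 : 0 < Nat.card (G ⧸ N) := Nat.card_pos
    nlinarith

end Cfsg.Agent.H63.MultClasses
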